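import Mathlib
import Cfsg.Agent.Lib.AlperinDade.Main
import Cfsg.Agent.Lib.BlockT.Inflate2
import Cfsg.Agent.Lib.CharDeep.Det
import Cfsg.Agent.Lib.Char.Linear
import Cfsg.Agent.S0867

/-!
# Extensions of a `p`-rational character in the principal block: the local condition

For `N ⊴ G` and `θ ∈ Irr N`, a *good* extension of `θ` to `N ≤ H ≤ G` is a character of `H` restricting
to `θ`, of determinantal order prime to `p`, which satisfies the central character congruences of the
principal block on `p`-regular elements, relative to the `N`-class sizes.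
-/

set_option linter.unusedSectionVars false
set_option autoImplicit false
set_option linter.style.haveILetI false

namespace Cfsg.Agent.Lib.PRatExt.Good

open Cfsg
open Cfsg.Agent.Lib.Blocks.Local
open Cfsg.Agent.Lib.Char.Basic Cfsg.Agent.Lib.Char.Ortho Cfsg.Agent.Lib.Char.Complete
open Cfsg.Agent.Lib.AlperinDade.Basic

universe u

section Index

variable {X : Type*} [Group X] [Finite X]

/-- For `N ⊴ X`, the index of `C` is the index of `C ∩ N` in `N` times a divisor of `|X : N|`. -/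
theorem index_factor (N C : Subgroup X) [hN : N.Normal] :
    ∃ t, t ∣ N.index ∧ C.index = C.relIndex N * t := by
  obtain ⟨t, ht⟩ : N.relIndex C ∣ N.index := Subgroup.relIndex_dvd_index_of_normal N C
  refine ⟨t, ⟨N.relIndex C, by rw [ht, mul_comm]⟩, ?_⟩
  have e1 : (C ⊓ N).index = C.relIndex N * N.index := by
    rw [← Subgroup.inf_relIndex_right C N, Subgroup.relIndex_mul_index inf_le_right]
  have e2 : (C ⊓ N).index = N.relIndex C * C.index := by
    rw [inf_comm, ← Subgroup.inf_relIndex_right N C, Subgroup.relIndex_mul_index inf_le_right]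
  have h0 : N.relIndex C ≠ 0 := by
    intro h
    rw [h, zero_mul] at e2
    exact Subgroup.index_ne_zero_of_finite e2
  apply Nat.eq_of_mul_eq_mul_left (Nat.pos_of_ne_zero h0)
  rw [← e2, e1, ht]
  ring

end Index

variable {G : Type u} [Group G] [Fintype G] {p : ℕ} {M : Ideal AlgInt}

/-- The size of the `N`-class of an element. -/
noncomputable def iota (N : Subgroup G) (y : G) : ℕ :=
  (Subgroup.centralizer ({y} : Set G)).relIndex N

theorem exists_index_factor (N H : Subgroup G) [N.Normal] (hNH : N ≤ H) (y : H) :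
    ∃ t, t ∣ (N.subgroupOf H).index ∧
      (Subgroup.centralizer ({y} : Set H)).index = iota N y * t := by
  haveI : (N.subgroupOf H).Normal := inferInstance
  obtain ⟨t, ht, he⟩ := index_factor (N.subgroupOf H) (Subgroup.centralizer ({y} : Set H))
  refine ⟨t, ht, ?_⟩
  rw [he, centralizer_coe_eq H y, Subgroup.relIndex_subgroupOf hNH]
  rfl

theorem root_eq_one (hM : IsPModular p M) {z : ℂ} {o : ℕ} (ho : ¬ p ∣ o) (hz : z ^ o = 1)
    (h : MemLocalIdeal M (1 - z)) : z = 1 := by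
  haveI := isPrime_of_pModular hM
  by_contra hne
  have ho0 : o ≠ 0 := fun h0 => ho (h0 ▸ dvd_zero _)
  have hzi : MemLocalRing M z := memLocalRing_of_isIntegral
    (IsIntegral.of_pow (Nat.pos_of_ne_zero ho0) (hz ▸ isIntegral_one))
  have h0 : ∑ i ∈ Finset.range o, z ^ i = 0 := by
    have h1 := geom_sum_mul z o
    rw [hz, sub_self] at h1
    exact (mul_eq_zero.mp h1).resolve_right (sub_ne_zero.mpr hne)
  have h2 : MemLocalIdeal M (∑ i ∈ Finset.range o, (1 - z ^ i)) := by
    refine memLocalIdeal_sum _ _ fun i _ => ?_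
    rw [← mul_neg_geom_sum]
    exact memLocalIdeal_mul_right h (memLocalRing_sum _ _ fun j _ => memLocalRing_pow hzi j)
  have h3 : ∑ i ∈ Finset.range o, (1 - z ^ i) = (o : ℂ) := by
    rw [Finset.sum_sub_distrib, h0]
    simp
  rw [h3, natCast_memLocalIdeal_iff hM] at h2
  exact ho h2

/-- The determinantal order of a pull back. -/
theorem detOrder_comp_dvd {X Y : Type*} [Group X] [Group Y] [Finite X] [Finite Y] (f : Y →* X) {χ : X → ℂ}
    (hχ : IsCharacter X χ) : detOrder (χ ∘ f) ∣ detOrder χ := by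
  unfold detOrder
  apply orderOf_dvd_of_pow_eq_one
  funext y
  have h1 : (detChar χ) ^ orderOf (detChar χ) = 1 := pow_orderOf_eq_one _
  have h2 := congrFun h1 (f y)
  simp only [Pi.pow_apply, Pi.one_apply] at h2 ⊢
  rw [Cfsg.Agent.Lib.CharDeep.Det.detChar_comp f hχ y, h2]

/-- A *good* extension. -/
structure IsGood (M : Ideal AlgInt) (p : ℕ) (N : Subgroup G) (θ : N → ℂ) (H : Subgroup G) (hNH : N ≤ H)
    (ψ : H → ℂ) : Prop where
  char : IsCharacter H ψ
  ext : ∀ n : N, ψ ⟨n, hNH n.2⟩ = θ n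
  det : ¬ p ∣ detOrder ψ
  cond : ∀ y : H, ¬ p ∣ orderOf y → MemLocalIdeal M ((iota N y : ℂ) * (θ 1 - ψ y))

variable {N : Subgroup G} {θ : N → ℂ}

theorem IsGood.irr {H : Subgroup G} {hNH : N ≤ H} {ψ : H → ℂ} (h : IsGood M p N θ H hNH ψ)
    (hθ : IsIrrCharacter N θ) : IsIrrCharacter H ψ := by
  refine Cfsg.Agent.Lib.Char.Extend.isIrrCharacter_of_comp_isIrr (Subgroup.inclusion hNH) h.char ?_
  have : ψ ∘ Subgroup.inclusion hNH = θ := by
    funext n
    exact h.ext n
  rw [this]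
  exact hθ

theorem IsGood.one {H : Subgroup G} {hNH : N ≤ H} {ψ : H → ℂ} (h : IsGood M p N θ H hNH ψ) :
    ψ 1 = θ 1 := h.ext 1

/-- Goodness passes to subgroups. -/
theorem IsGood.restrict {H H' : Subgroup G} {hNH : N ≤ H} {ψ : H → ℂ} (h : IsGood M p N θ H hNH ψ)
    (hNH' : N ≤ H') (hle : H' ≤ H) :
    IsGood M p N θ H' hNH' (ψ ∘ Subgroup.inclusion hle) where
  char := isCharacter_comp _ h.char
  ext := fun n => h.ext n
  det := fun hd => h.det (hd.trans (detOrder_comp_dvd _ h.char))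
  cond := fun y hy => by
    have h1 := h.cond (Subgroup.inclusion hle y)
      (by rwa [show orderOf (Subgroup.inclusion hle y) = orderOf y from
        orderOf_injective _ (Subgroup.inclusion_injective hle) y])
    exact h1

theorem iota_conj (N : Subgroup G) [hN : N.Normal] (h y : G) : iota N (h * y * h⁻¹) = iota N y := by
  unfold iota
  have h1 : Subgroup.centralizer ({h * y * h⁻¹} : Set G) =
      (Subgroup.centralizer ({y} : Set G)).map (MulAut.conj h).toMonoidHom := by
    ext x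
    simp only [Subgroup.mem_centralizer_iff, Set.mem_singleton_iff, forall_eq, Subgroup.mem_map]
    constructor
    · intro hx
      refine ⟨h⁻¹ * x * h, ?_, by simp [mul_assoc]⟩
      have : (h⁻¹ * (h * y * h⁻¹) * h) * (h⁻¹ * x * h) = (h⁻¹ * x * h) * (h⁻¹ * (h * y * h⁻¹) * h) := by
        have e1 : (h⁻¹ * (h * y * h⁻¹) * h) * (h⁻¹ * x * h) = h⁻¹ * ((h * y * h⁻¹) * x) * h := by group
        have e2 : (h⁻¹ * x * h) * (h⁻¹ * (h * y * h⁻¹) * h) = h⁻¹ * (x * (h * y * h⁻¹)) * h := by group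
        rw [e1, e2, hx]
      have e3 : h⁻¹ * (h * y * h⁻¹) * h = y := by group
      rwa [e3] at this
    · rintro ⟨z, hz, rfl⟩
      change (h * y * h⁻¹) * (h * z * h⁻¹) = (h * z * h⁻¹) * (h * y * h⁻¹)
      have e1 : (h * y * h⁻¹) * (h * z * h⁻¹) = h * (y * z) * h⁻¹ := by group
      have e2 : (h * z * h⁻¹) * (h * y * h⁻¹) = h * (z * y) * h⁻¹ := by group
      rw [e1, e2, hz]
  have h2 : N.map (MulAut.conj h).toMonoidHom = N := by
    apply le_antisymm
    · rintro _ ⟨n, hn, rfl⟩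
      exact hN.conj_mem n hn h
    · intro x hx
      exact ⟨h⁻¹ * x * h, by simpa using hN.conj_mem x hx h⁻¹, by simp [mul_assoc]⟩
  rw [h1, ← Subgroup.relIndex_map_map_of_injective (f := (MulAut.conj h).toMonoidHom)
    (Subgroup.centralizer ({y} : Set G)) N (MulAut.conj h).injective, h2]

/-- Goodness passes to conjugates. -/
theorem IsGood.conj [hN : N.Normal] {H H₂ : Subgroup G} {hNH : N ≤ H} {ψ : H → ℂ}
    (h : IsGood M p N θ H hNH ψ) (hNH₂ : N ≤ H₂) (g : G) (σ : H₂ ≃* H)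
    (hσ : ∀ x : H₂, ((σ x : H) : G) = g * x * g⁻¹)
    (hinv : ∀ (g : G) (n n' : N), (n' : G) = g * (n : G) * g⁻¹ → θ n' = θ n) :
    IsGood M p N θ H₂ hNH₂ (ψ ∘ σ) where
  char := isCharacter_comp (σ : H₂ →* H) h.char
  ext := fun n => by
    have h1 : σ ⟨n, hNH₂ n.2⟩ = ⟨g * n * g⁻¹, hNH (hN.conj_mem n n.2 g)⟩ := Subtype.ext (hσ _)
    simp only [Function.comp_apply]
    rw [h1]
    have h2 := h.ext ⟨g * n * g⁻¹, hN.conj_mem n n.2 g⟩
    exact h2.trans (hinv g n _ rfl)
  det := fun hd => h.det (hd.trans (detOrder_comp_dvd (σ : H₂ →* H) h.char))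
  cond := fun y hy => by
    have h1 := h.cond (σ y)
      (by rwa [show orderOf (σ y) = orderOf y from orderOf_injective (σ : H₂ →* H) σ.injective y])
    rw [hσ y, iota_conj] at h1
    have h3 : ((σ y : H) : G) = g * y * g⁻¹ := hσ y
    simpa using h1

/-- **Uniqueness** of good extensions. -/
theorem IsGood.unique (hM : IsPModular p M) [hN : N.Normal] (hθ : IsIrrCharacter N θ)
    (hd : ¬ p ∣ charDegree θ) {Q : Subgroup G} (hQ : ¬ p ∣ Q.relIndex N)
    (hreg : ∀ y : G, ¬ p ∣ orderOf y →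
      ∃ n ∈ N, ∃ c ∈ Subgroup.centralizer (Q : Set G), y = n * c)
    {H : Subgroup G} {hNH : N ≤ H} {ψ₁ ψ₂ : H → ℂ} (h₁ : IsGood M p N θ H hNH ψ₁)
    (h₂ : IsGood M p N θ H hNH ψ₂) : ψ₁ = ψ₂ := by
  classical
  haveI := isPrime_of_pModular hM
  have hp := hM.1
  letI : Fintype H := Fintype.ofFinite _
  let N' : Subgroup H := N.subgroupOf H
  letI : Fintype N' := Fintype.ofFinite _
  let σ : N' ≃* N := Subgroup.subgroupOfEquivOfLe hNH
  have hr₁ : (fun n : N' => ψ₁ n) = θ ∘ σ := by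
    funext n
    exact h₁.ext (σ n)
  have hr₂ : (fun n : N' => ψ₂ n) = θ ∘ σ := by
    funext n
    exact h₂.ext (σ n)
  have hirr : IsIrrCharacter N' (θ ∘ σ) := Cfsg.Agent.Lib.Char.Conj.isIrrCharacter_comp_mulEquiv σ hθ
  have hne : classInner (fun n : N' => ψ₂ n) (fun n : N' => ψ₁ n) ≠ 0 := by
    rw [hr₁, hr₂, classInner_self_of_isIrr hirr]
    exact one_ne_zero
  obtain ⟨φ, hφ, he⟩ := Cfsg.Agent.Lib.CharDeep.GallagherExt.exists_eq_mul_of_classInner_ne_zero N'
    h₁.char (by rw [hr₁]; exact hirr) (h₂.irr hθ) hne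
  have hθ0 : θ 1 ≠ 0 := irr_one_ne_zero hθ
  have hφ1 : φ 1 = 1 := by
    have h1 := congrFun he 1
    simp only [Pi.mul_apply, Function.comp_apply, map_one] at h1
    rw [h₁.one, h₂.one] at h1
    exact (mul_left_cancel₀ hθ0 (h1.symm.trans (mul_one _).symm))
  obtain ⟨lam₀, hlam₀⟩ := Cfsg.Agent.Lib.Char.Linear.exists_hom_of_deg_one
    (isCharacter_of_isIrrCharacter hφ) hφ1
  let lam : H →* ℂˣ := lam₀.comp (QuotientGroup.mk' N')
  have he' : ∀ x : H, ψ₂ x = ψ₁ x * ((lam x : ℂˣ) : ℂ) := by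
    intro x
    have h1 := congrFun he x
    simp only [Pi.mul_apply, Function.comp_apply] at h1
    rw [h1, hlam₀]
    rfl
  have hlamN : ∀ x : H, (x : G) ∈ N → lam x = 1 := by
    intro x hx
    change lam₀ (QuotientGroup.mk' N' x) = 1
    rw [show QuotientGroup.mk' N' x = 1 from (QuotientGroup.eq_one_iff x).mpr hx, map_one]
  -- the degree
  have hdN : θ 1 = (charDegree θ : ℂ) :=
    (Cfsg.Agent.Lib.Char.Degree.charDegree_natCast (isCharacter_of_isIrrCharacter hθ)).symm
  have hθI : ¬ MemLocalIdeal M (θ 1) := by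
    rw [hdN, natCast_memLocalIdeal_iff hM]
    exact hd
  have hint : ∀ x : H, MemLocalRing M (ψ₁ x) := fun x =>
    memLocalRing_of_isIntegral (Cfsg.Agent.Lib.BlockT.NormalP.isIntegral_irr ⟨ψ₁, h₁.irr hθ⟩ x)
  have hintθ : MemLocalRing M (θ 1) := by
    rw [hdN]
    exact memLocalRing_natCast _
  -- regular elements
  have hregl : ∀ y : H, ¬ p ∣ orderOf y → lam y = 1 := by
    intro y hy
    have hy' : ¬ p ∣ orderOf (y : G) := by rwa [Subgroup.orderOf_coe]
    obtain ⟨n, hn, c₀, hc₀, hyc⟩ := hreg y hy'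
    have hc₀H : c₀ ∈ H := by
      have : c₀ = n⁻¹ * y := by rw [hyc]; group
      rw [this]
      exact H.mul_mem (H.inv_mem (hNH hn)) y.2
    obtain ⟨a, m, hm, hcard⟩ := Nat.exists_eq_pow_mul_and_not_dvd
      (Nat.card_pos (α := G)).ne' p hp.ne_one
    -- the power
    have hcop : (p ^ a).Coprime (orderOf y) :=
      Nat.Coprime.pow_left _ ((Nat.Prime.coprime_iff_not_dvd hp).mpr hy)
    obtain ⟨s, hs1, hs2⟩ := Nat.chineseRemainder hcop 0 1
    have hps : p ^ a ∣ s := (Nat.modEq_zero_iff_dvd).mp hs1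
    let c : H := ⟨c₀ ^ s, H.pow_mem hc₀H s⟩
    have hcC : (c : G) ∈ Subgroup.centralizer (Q : Set G) := Subgroup.pow_mem _ hc₀ s
    have hcm : c ^ m = 1 := by
      apply Subtype.ext
      change (c₀ ^ s) ^ m = 1
      obtain ⟨u, hu⟩ := hps
      rw [hu, ← pow_mul, show p ^ a * u * m = (p ^ a * m) * u by ring, ← hcard, pow_mul,
        pow_card_eq_one', one_pow]
    have hcreg : ¬ p ∣ orderOf c := fun h => hm (h.trans (orderOf_dvd_of_pow_eq_one hcm))
    -- the value of `lam`
    have hyl : lam y = lam c := by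
      have h1 : y = (⟨n, hNH hn⟩ : H) * ⟨c₀, hc₀H⟩ := Subtype.ext hyc
      have h2 : lam y = lam ⟨c₀, hc₀H⟩ := by
        conv_lhs => rw [h1]
        rw [map_mul, hlamN ⟨n, hNH hn⟩ hn, one_mul]
      have h3 : c = (⟨c₀, hc₀H⟩ : H) ^ s := rfl
      have h4 : lam y ^ s = lam y := by
        rw [← map_pow]
        congr 1
        have h5 : y ^ s = y ^ 1 := pow_eq_pow_iff_modEq.mpr hs2
        rwa [pow_one] at h5
      rw [h3, map_pow, ← h2, h4]
    -- the condition at `c`
    have hiota : ¬ p ∣ iota N (c : G) := by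
      intro h
      apply hQ
      refine h.trans (Subgroup.relIndex_dvd_of_le_left N ?_)
      intro x hx
      rw [Subgroup.mem_centralizer_iff]
      intro w hw
      rw [Set.mem_singleton_iff] at hw
      subst hw
      exact ((Subgroup.mem_centralizer_iff.mp hcC) x hx).symm
    have hin : ¬ MemLocalIdeal M (iota N (c : G) : ℂ) := by
      rw [natCast_memLocalIdeal_iff hM]
      exact hiota
    have hint₂ : ∀ x : H, MemLocalRing M (ψ₂ x) := fun x =>
      memLocalRing_of_isIntegral (Cfsg.Agent.Lib.BlockT.NormalP.isIntegral_irr ⟨ψ₂, h₂.irr hθ⟩ x)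
    have hA := memLocalIdeal_of_mul (memLocalRing_natCast _) hin
      (memLocalRing_sub hintθ (hint c)) (h₁.cond c hcreg)
    have hB := memLocalIdeal_of_mul (memLocalRing_natCast _) hin
      (memLocalRing_sub hintθ (hint₂ c)) (h₂.cond c hcreg)
    set l : ℂ := ((lam c : ℂˣ) : ℂ) with hl
    have hlm : l ^ m = 1 := by
      have h1 : (lam c) ^ m = 1 := by rw [← map_pow, hcm, map_one]
      rw [hl, ← Units.val_pow_eq_pow_val, h1, Units.val_one]
    have hm0 : m ≠ 0 := fun h0 => hm (h0 ▸ dvd_zero _)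
    have hli : MemLocalRing M l := memLocalRing_of_isIntegral
      (IsIntegral.of_pow (Nat.pos_of_ne_zero hm0) (hlm ▸ isIntegral_one))
    have h1l : MemLocalIdeal M (1 - l) := by
      refine memLocalIdeal_of_mul hintθ hθI (memLocalRing_sub memLocalRing_one hli) ?_
      have h5 := memLocalIdeal_sub hB (memLocalIdeal_mul_right hA hli)
      convert h5 using 1
      rw [he' c, ← hl]
      ring
    have hzo : ((lam y : ℂˣ) : ℂ) ^ orderOf y = 1 := by
      have h1 : (lam y) ^ orderOf y = 1 := by rw [← map_pow, pow_orderOf_eq_one, map_one]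
      rw [← Units.val_pow_eq_pow_val, h1, Units.val_one]
    rw [← hyl] at hl
    rw [hl] at h1l
    exact Units.ext (root_eq_one hM hy hzo h1l)
  -- all elements
  have hc₁ := h₁.char
  have hdet := Cfsg.Agent.Lib.CharDeep.Det.detChar_mul_hom lam hc₁ (charDegree θ)
    (by rw [h₁.one, hdN])
  have hψ₂ : ψ₂ = ψ₁ * fun g => ((lam g : ℂˣ) : ℂ) := by
    funext x
    exact he' x
  rw [← hψ₂] at hdet
  have hdpow : ∀ (χ : H → ℂ), ∀ x : H, (detChar χ x) ^ detOrder χ = 1 := by
    intro χ x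
    have h1 : (detChar χ) ^ detOrder χ = 1 := pow_orderOf_eq_one _
    simpa using congrFun h1 x
  have hall : ∀ x : H, lam x = 1 := by
    intro x
    set e := charDegree θ * (detOrder ψ₁ * detOrder ψ₂) with he
    have h1 : (lam x) ^ e = 1 := by
      apply Units.ext
      have h2 := congrFun hdet x
      have h3 := hdpow ψ₁ x
      have h4 := hdpow ψ₂ x
      set a := detChar ψ₁ x
      set b := detChar ψ₂ x
      set l : ℂ := ((lam x : ℂˣ) : ℂ) with hl
      have ha0 : a ≠ 0 := by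
        intro h0
        rw [h0, zero_pow] at h3
        · exact zero_ne_one h3
        · intro h5
          apply h₁.det
          rw [h5]
          exact dvd_zero _
      have h5 : b ^ (detOrder ψ₁ * detOrder ψ₂) = 1 := by
        rw [mul_comm, pow_mul, h4, one_pow]
      have h6 : a ^ (detOrder ψ₁ * detOrder ψ₂) = 1 := by
        rw [pow_mul, h3, one_pow]
      simp only [Units.val_pow_eq_pow_val, Units.val_one, ← hl]
      rw [he, pow_mul]
      rw [h2, mul_pow, h6, mul_one] at h5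
      exact h5
    have hco : ¬ p ∣ e := by
      intro h
      rcases (Nat.Prime.dvd_mul hp).mp h with h | h
      · exact hd h
      · rcases (Nat.Prime.dvd_mul hp).mp h with h | h
        · exact h₁.det h
        · exact h₂.det h
    obtain ⟨b, c, hc, hbc⟩ := Nat.exists_eq_pow_mul_and_not_dvd (orderOf_pos x).ne' p hp.ne_one
    have h2 : (x ^ p ^ b) ^ c = 1 := by
      rw [← pow_mul, ← hbc, pow_orderOf_eq_one]
    have h3 : (lam x) ^ p ^ b = 1 := by
      rw [← map_pow]
      exact hregl _ fun h => hc (h.trans (orderOf_dvd_of_pow_eq_one h2))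
    have h4 : orderOf (lam x) ∣ Nat.gcd (p ^ b) e :=
      Nat.dvd_gcd (orderOf_dvd_of_pow_eq_one h3) (orderOf_dvd_of_pow_eq_one h1)
    have h5 : Nat.gcd (p ^ b) e = 1 :=
      Nat.Coprime.pow_left _ ((Nat.Prime.coprime_iff_not_dvd hp).mpr hco)
    rw [h5, Nat.dvd_one, orderOf_eq_one_iff] at h4
    exact h4
  funext x
  rw [he' x, hall x]
  simp

/-- The block condition on `p`-regular elements. -/
theorem mem_principal_generic (hM : IsPModular p M) {X : Type*} [Group X] [Fintype X]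
    (χ : IrrCharacter X) {d : ℕ} (hd : ¬ p ∣ d) (hχ1 : (χ : X → ℂ) 1 = d)
    (h : ∀ y : X, ¬ p ∣ orderOf y →
      MemLocalIdeal M (((Subgroup.centralizer ({y} : Set X)).index : ℂ) * ((d : ℂ) - (χ : X → ℂ) y))) :
    χ ∈ principalBlock M X := by
  haveI := isPrime_of_pModular hM
  have hd0 : (d : ℂ) ≠ 0 := by
    intro h0
    have : d = 0 := by exact_mod_cast h0
    exact hd (this ▸ dvd_zero _)
  let one : IrrCharacter X := ⟨fun _ => 1, Cfsg.Agent.Lib.Char.Burnside.isIrrCharacter_one⟩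
  refine Cfsg.Agent.Lib.BlockT.Inflate2.sameBlock_of_regular hM (χ := one) fun y hy => ?_
  have h1 := memLocalIdeal_mul_left (memLocalRing_natCast_inv (M := M) hM hd) (h y hy)
  convert h1 using 1
  rw [show (one : X → ℂ) = fun _ => (1 : ℂ) from rfl, centralChar_sub, hχ1]
  field_simp

theorem mem_principal_of_cond (hM : IsPModular p M) [hN : N.Normal] {H : Subgroup G} (hNH : N ≤ H)
    (ψ : IrrCharacter H) {d : ℕ} (hd : ¬ p ∣ d) (hψ1 : (ψ : H → ℂ) 1 = d)
    (h : ∀ y : H, ¬ p ∣ orderOf y → MemLocalIdeal M ((iota N y : ℂ) * ((d : ℂ) - (ψ : H → ℂ) y))) :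
    ψ ∈ principalBlock M H := by
  haveI := isPrime_of_pModular hM
  letI : Fintype H := Fintype.ofFinite _
  refine mem_principal_generic hM ψ hd hψ1 fun y hy => ?_
  obtain ⟨t, -, ht⟩ := exists_index_factor N H hNH y
  rw [ht]
  push_cast
  have h1 := memLocalIdeal_mul_left (memLocalRing_natCast (M := M) t) (h y hy)
  convert h1 using 1
  ring

theorem cond_of_mem_principal (hM : IsPModular p M) [hN : N.Normal] {H : Subgroup G} (hNH : N ≤ H)
    (hidx : ¬ p ∣ (N.subgroupOf H).index) (ψ : IrrCharacter H) {d : ℕ} (hψ1 : (ψ : H → ℂ) 1 = d)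
    (hψ : ψ ∈ principalBlock M H) (y : H) :
    MemLocalIdeal M ((iota N y : ℂ) * ((d : ℂ) - (ψ : H → ℂ) y)) := by
  haveI := isPrime_of_pModular hM
  obtain ⟨t, ht, he⟩ := exists_index_factor N H hNH y
  have htp : ¬ p ∣ t := fun h => hidx (h.trans ht)
  have ht0 : (t : ℂ) ≠ 0 := by
    intro h0
    have : t = 0 := by exact_mod_cast h0
    exact htp (this ▸ dvd_zero _)
  have hd0 : (d : ℂ) ≠ 0 := by
    rw [← hψ1]
    exact irr_one_ne_zero ψ.2
  have h1 := (mem_principalBlock_iff ψ).mp hψ y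
  have h2 := memLocalIdeal_mul_left (memLocalRing_natCast (M := M) d)
    (memLocalIdeal_mul_left (memLocalRing_natCast_inv (M := M) hM htp) h1)
  convert h2 using 1
  rw [he, hψ1]
  push_cast
  field_simp

/-- The determinantal order of an extension. -/
theorem detOrder_ext_dvd [hN : N.Normal] (hθ : IsCharacter N θ) {H : Subgroup G} (hNH : N ≤ H)
    {ψ : H → ℂ} (hψ : IsCharacter H ψ) (hext : ∀ n : N, ψ ⟨n, hNH n.2⟩ = θ n) :
    detOrder ψ ∣ (N.subgroupOf H).index * detOrder θ := by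
  classical
  unfold detOrder
  apply orderOf_dvd_of_pow_eq_one
  funext a
  haveI : (N.subgroupOf H).Normal := inferInstance
  have hmem : a ^ (N.subgroupOf H).index ∈ N.subgroupOf H := Subgroup.pow_index_mem _ a
  let b : N := ⟨((a ^ (N.subgroupOf H).index : H) : G), hmem⟩
  have h0 : ψ ∘ Subgroup.inclusion hNH = θ := funext hext
  have h1 : detChar θ b = detChar ψ (a ^ (N.subgroupOf H).index) := by
    rw [← h0]
    exact Cfsg.Agent.Lib.CharDeep.Det.detChar_comp (Subgroup.inclusion hNH) hψ b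
  have h2 : detChar ψ (a ^ (N.subgroupOf H).index) = (detChar ψ a) ^ (N.subgroupOf H).index := by
    have h3 := map_pow (Cfsg.Agent.Lib.CharDeep.Det.detHom hψ) a (N.subgroupOf H).index
    have h4 := congrArg Units.val h3
    rwa [Cfsg.Agent.Lib.CharDeep.Det.coe_detHom, Units.val_pow_eq_pow_val,
      Cfsg.Agent.Lib.CharDeep.Det.coe_detHom] at h4
  have h5 : (detChar θ b) ^ orderOf (detChar θ) = 1 := by
    have h6 : (detChar θ) ^ orderOf (detChar θ) = 1 := pow_orderOf_eq_one _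
    simpa using congrFun h6 b
  simp only [Pi.pow_apply, Pi.one_apply]
  rw [pow_mul, ← h2, ← h1, h5]

section Exist

variable [hN : N.Normal]

/-- Stage one: `p'`-index, from the theorem of Alperin and Dade. -/
theorem exists_good_of_coprime (hM : IsPModular p M) {θ : IrrCharacter N} (hB : θ ∈ principalBlock M N)
    (hdet : ¬ p ∣ detOrder (θ : N → ℂ)) {Q : Subgroup G} (hQN : Q ≤ N) (hQ : ¬ p ∣ Q.relIndex N)
    {A : Subgroup G} (hNA : N ≤ A) (hA : ¬ p ∣ (N.subgroupOf A).index)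
    (hAK : ∀ a ∈ A, ∃ n ∈ N, ∃ c ∈ Subgroup.centralizer (Q : Set G), a = n * c) :
    ∃ ψ : A → ℂ, IsGood M p N (θ : N → ℂ) A hNA ψ := by
  classical
  haveI := isPrime_of_pModular hM
  have hp := hM.1
  letI : Fintype A := Fintype.ofFinite _
  have hres : Res M A (N.subgroupOf A) := by
    refine Cfsg.Agent.Lib.AlperinDade.Main.main_res hM _ A (N.subgroupOf A) (Q.subgroupOf A) rfl
      (fun x hx => hQN hx) ?_ ?_
    · intro h
      have h1 : (Q.subgroupOf A).index = Q.relIndex A := rfl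
      rw [h1, ← Subgroup.relIndex_mul_relIndex Q N A hQN hNA] at h
      rcases (Nat.Prime.dvd_mul hp).mp h with h | h
      · exact hQ h
      · exact hA h
    · rw [eq_top_iff]
      rintro ⟨a, ha⟩ -
      obtain ⟨n, hn, c, hc, rfl⟩ := hAK a ha
      have hcA : c ∈ A := by
        have : c = n⁻¹ * (n * c) := by group
        rw [this]
        exact A.mul_mem (A.inv_mem (hNA hn)) ha
      have h1 : (⟨n * c, ha⟩ : A) = (⟨n, hNA hn⟩ : A) * ⟨c, hcA⟩ := rfl
      rw [h1]
      refine Subgroup.mul_mem_sup hn ?_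
      rw [Subgroup.mem_centralizer_iff]
      rintro ⟨x, hx'⟩ hx
      apply Subtype.ext
      exact (Subgroup.mem_centralizer_iff.mp hc) x hx
  obtain ⟨θ', hθ', he⟩ := Cfsg.Agent.Lib.AlperinDade.Main.exists_subgroupOf hNA hB
  obtain ⟨ψ, ⟨hψ, hψe⟩, -⟩ := hres.2 θ' hθ'
  have hext : ∀ n : N, (ψ : A → ℂ) ⟨n, hNA n.2⟩ = (θ : N → ℂ) n := by
    intro n
    rw [← he n]
    exact hψe ⟨⟨n, hNA n.2⟩, n.2⟩
  have hψc := isCharacter_of_isIrrCharacter ψ.2
  refine ⟨ψ, hψc, hext, ?_, ?_⟩
  · intro h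
    have h1 := h.trans (detOrder_ext_dvd (isCharacter_of_isIrrCharacter θ.2) hNA hψc hext)
    rcases (Nat.Prime.dvd_mul hp).mp h1 with h | h
    · exact hA h
    · exact hdet h
  · intro y _
    have h1 : (ψ : A → ℂ) 1 = (charDegree (θ : N → ℂ) : ℂ) := by
      rw [Cfsg.Agent.Lib.Char.Degree.charDegree_natCast (isCharacter_of_isIrrCharacter θ.2)]
      exact hext 1
    have h2 := cond_of_mem_principal hM hNA hA ψ h1 hψ y
    rwa [Cfsg.Agent.Lib.Char.Degree.charDegree_natCast (isCharacter_of_isIrrCharacter θ.2)] at h2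

/-- Stage two: `p`-power index, from the canonical extension. -/
theorem exists_good_of_pIndex (hM : IsPModular p M) {θ : N → ℂ} (hθ : IsIrrCharacter N θ)
    (hd : ¬ p ∣ charDegree θ) {Q : Subgroup G} (hQ : ¬ p ∣ Q.relIndex N)
    (hreg : ∀ y : G, ¬ p ∣ orderOf y →
      ∃ n ∈ N, ∃ c ∈ Subgroup.centralizer (Q : Set G), y = n * c)
    (hinv : ∀ (g : G) (n n' : N), (n' : G) = g * (n : G) * g⁻¹ → θ n' = θ n)
    {A H : Subgroup G} (hNA : N ≤ A) (hAH : A ≤ H) (hnorm : ∀ h ∈ H, ∀ a ∈ A, h * a * h⁻¹ ∈ A)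
    (hidx : ∃ k : ℕ, (A.subgroupOf H).index = p ^ k) {ψA : A → ℂ}
    (hA : IsGood M p N θ A hNA ψA) :
    ∃ ψ : H → ℂ, IsGood M p N θ H (hNA.trans hAH) ψ := by
  classical
  haveI := isPrime_of_pModular hM
  have hp := hM.1
  letI : Fintype H := Fintype.ofFinite _
  let A' : Subgroup H := A.subgroupOf H
  haveI hA'n : A'.Normal := ⟨fun a ha h => hnorm h h.2 a ha⟩
  let σ : A' ≃* A := Subgroup.subgroupOfEquivOfLe hAH
  let ϑ : A' → ℂ := ψA ∘ σ
  have hAirr := hA.irr hθ
  have hϑ : IsIrrCharacter A' ϑ := Cfsg.Agent.Lib.Char.Conj.isIrrCharacter_comp_mulEquiv σ hAirr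
  -- invariance
  have hinvA : ∀ (g : H) (n : A'), ϑ ⟨g * n * g⁻¹, hA'n.conj_mem (n : H) n.2 g⟩ = ϑ n := by
    intro g n
    let τ : A ≃* A :=
      { toFun := fun x => ⟨g * x * g⁻¹, hnorm g g.2 x x.2⟩
        invFun := fun x => ⟨(g : G)⁻¹ * x * g, by
          have := hnorm (g⁻¹ : H) (g⁻¹ : H).2 x x.2
          simpa using this⟩
        left_inv := fun x => by
          apply Subtype.ext
          simp [mul_assoc]
        right_inv := fun x => by
          apply Subtype.ext
          simp [mul_assoc]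
        map_mul' := fun x y => by
          apply Subtype.ext
          simp [mul_assoc] }
    have h1 := hA.conj hNA g τ (fun x => rfl) hinv
    have h2 := IsGood.unique hM hθ hd hQ hreg hA h1
    have h3 := congrFun h2 (σ n)
    exact h3.symm
  -- the degree
  have hdN : θ 1 = (charDegree θ : ℂ) :=
    (Cfsg.Agent.Lib.Char.Degree.charDegree_natCast (isCharacter_of_isIrrCharacter hθ)).symm
  have hϑ1 : ϑ 1 = (charDegree θ : ℂ) := by
    rw [← hdN]
    have h1 : ϑ 1 = ψA 1 := by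
      simp only [ϑ, Function.comp_apply, map_one]
    rw [h1]
    exact hA.one
  have hϑdet : ¬ p ∣ detOrder ϑ := fun h => hA.det (h.trans (detOrder_comp_dvd (σ : A' →* A) hA.char))
  obtain ⟨k, hk⟩ := hidx
  have hcop : Nat.Coprime A'.index (detOrder ϑ * charDegree θ) := by
    change Nat.Coprime (A.subgroupOf H).index _
    rw [hk]
    apply Nat.Coprime.pow_left
    rw [Nat.Prime.coprime_iff_not_dvd hp]
    intro h
    rcases (Nat.Prime.dvd_mul hp).mp h with h | h
    · exact hϑdet h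
    · exact hd h
  obtain ⟨χ, ⟨hχ, hext, hdet⟩, -⟩ := Cfsg.Agent.S0867.result A' ϑ hϑ hinvA _ hϑ1 hcop
  refine ⟨χ, isCharacter_of_isIrrCharacter hχ, ?_, ?_, ?_⟩
  · intro n
    have h1 := hext ⟨⟨n, hAH (hNA n.2)⟩, hNA n.2⟩
    rw [show χ ⟨n, (hNA.trans hAH) n.2⟩ = χ (⟨⟨n, hAH (hNA n.2)⟩, hNA n.2⟩ : A') from rfl, h1]
    exact hA.ext n
  · rw [hdet]
    exact hϑdet
  · intro y hy
    have hyA : (y : G) ∈ A := by
      obtain ⟨s, hs1, hs2⟩ := Nat.chineseRemainder
        (Nat.Coprime.pow_left k ((Nat.Prime.coprime_iff_not_dvd hp).mpr hy)) 0 1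
      obtain ⟨u, hu⟩ := (Nat.modEq_zero_iff_dvd).mp hs1
      have h1 : y ^ s = y ^ 1 := pow_eq_pow_iff_modEq.mpr hs2
      rw [pow_one, hu, pow_mul] at h1
      have h2 : y ^ p ^ k ∈ A' := by
        rw [← hk]
        exact Subgroup.pow_index_mem _ y
      have h3 : (y ^ p ^ k) ^ u ∈ A' := Subgroup.pow_mem _ h2 u
      rw [h1] at h3
      exact h3
    have h1 := hext ⟨y, hyA⟩
    have h2 : (⟨y, hyA⟩ : A').1 = y := rfl
    rw [h2] at h1
    rw [h1]
    have h3 := hA.cond ⟨y, hyA⟩ (by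
      have : orderOf (⟨y, hyA⟩ : A) = orderOf (y : G) := Subgroup.orderOf_mk _ _
      rw [this, Subgroup.orderOf_coe]
      exact hy)
    exact h3

end Exist

end Cfsg.Agent.Lib.PRatExt.Good
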