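import Mathlib
import Cfsg.Agent.Lib.PRatExt.Good

/-!
# Existence of good extensions over elementary subgroups
-/

set_option linter.unusedSectionVars false
set_option autoImplicit false
set_option linter.style.haveILetI false

namespace Cfsg.Agent.Lib.PRatExt.Exist

open Cfsg
open Cfsg.Agent.Lib.Blocks.Local
open Cfsg.Agent.Lib.PRatExt.Good

universe u

section Hall

variable {T : Type*} [Group T] [Finite T] {p : ℕ} [hp : Fact p.Prime]

/-- A central Sylow `p`-subgroup has a normal complement. -/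
theorem exists_hall_of_central (S : Subgroup T) (hS : S ≤ Subgroup.center T) (hSp : IsPGroup p S)
    (hidx : ¬ p ∣ S.index) :
    ∃ F : Subgroup T, F.Normal ∧ ¬ p ∣ Nat.card F ∧ ∃ k : ℕ, F.index = p ^ k := by
  obtain ⟨e, he⟩ := IsPGroup.iff_card.mp hSp
  have hcop : (Nat.card S).Coprime S.index := by
    rw [he]
    exact Nat.Coprime.pow_left _ ((Nat.Prime.coprime_iff_not_dvd hp.out).mpr hidx)
  haveI : S.Normal := ⟨fun n hn g => by
    rw [(Subgroup.mem_center_iff.mp (hS hn) g)]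
    simpa using hn⟩
  obtain ⟨F, hF⟩ := Subgroup.exists_right_complement'_of_coprime hcop
  refine ⟨F, ⟨fun f hf g => ?_⟩, ?_, e, ?_⟩
  · have hg : g ∈ S ⊔ F := by
      rw [hF.sup_eq_top]
      trivial
    rw [← SetLike.mem_coe, Subgroup.normal_mul, Set.mem_mul] at hg
    obtain ⟨s, hs, f₀, hf₀, rfl⟩ := hg
    have h1 : s * f₀ * f * (s * f₀)⁻¹ = s * (f₀ * f * f₀⁻¹) * s⁻¹ := by group
    rw [h1, ← ((Subgroup.mem_center_iff.mp (hS hs)) (f₀ * f * f₀⁻¹))]
    simpa using F.mul_mem (F.mul_mem hf₀ hf) (F.inv_mem hf₀)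
  · rw [← hF.symm.index_eq_card]
    exact hidx
  · rw [hF.index_eq_card, he]

/-- Elementary groups have normal `p`-complements. -/
theorem exists_hall_of_elementary {q : ℕ} (hq : q.Prime) (hE : IsElementary q T) :
    ∃ F : Subgroup T, F.Normal ∧ ¬ p ∣ Nat.card F ∧ ∃ k : ℕ, F.index = p ^ k := by
  obtain ⟨x, hx, hco, k, hk⟩ := hE
  have hcen : ∀ y : T, y ∈ Subgroup.center T → Subgroup.zpowers y ≤ Subgroup.center T := fun y hy =>
    (Subgroup.zpowers_le).mpr hy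
  by_cases hqp : q = p
  · subst hqp
    haveI : (Subgroup.zpowers x).Normal := ⟨fun n hn g => by
      rw [(Subgroup.mem_center_iff.mp (hcen x hx hn) g)]
      simpa using hn⟩
    refine ⟨Subgroup.zpowers x, inferInstance, ?_, k, hk⟩
    rw [Nat.card_zpowers]
    intro h
    have := Nat.Coprime.eq_one_of_dvd hco.symm h
    exact hq.one_lt.ne' this
  · obtain ⟨b, c, hc, hbc⟩ := Nat.exists_eq_pow_mul_and_not_dvd (orderOf_pos x).ne' p hp.out.ne_one
    have hc0 : c ≠ 0 := fun h => hc (h ▸ dvd_zero _)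
    have hy : orderOf (x ^ c) = p ^ b := by
      rw [orderOf_pow_of_dvd hc0 (Dvd.intro_left _ hbc.symm), hbc]
      exact Nat.mul_div_cancel _ (Nat.pos_of_ne_zero hc0)
    have hS : Subgroup.zpowers (x ^ c) ≤ Subgroup.center T :=
      hcen _ (Subgroup.pow_mem _ hx c)
    refine exists_hall_of_central (Subgroup.zpowers (x ^ c)) hS ?_ ?_
    · apply IsPGroup.of_card (n := b)
      rw [Nat.card_zpowers, hy]
    · have h1 := (Subgroup.zpowers (x ^ c)).index_mul_card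
      have h2 := (Subgroup.zpowers x).index_mul_card
      rw [Nat.card_zpowers, hy] at h1
      rw [Nat.card_zpowers, hk, hbc, ← h1] at h2
      have h3 : (Subgroup.zpowers (x ^ c)).index = q ^ k * c := by
        apply Nat.eq_of_mul_eq_mul_right (pow_pos hp.out.pos b)
        rw [← h2]
        ring
      rw [h3]
      intro h
      rcases (Nat.Prime.dvd_mul hp.out).mp h with h | h
      · have := (Nat.prime_dvd_prime_iff_eq hp.out hq).mp (hp.out.dvd_of_dvd_pow h)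
        exact hqp this.symm
      · exact hc h

/-- Cyclic groups have normal `p`-complements. -/
theorem exists_hall_of_zpowers {G : Type*} [Group G] [Finite G] (g : G) :
    ∃ F : Subgroup (Subgroup.zpowers g), F.Normal ∧ ¬ p ∣ Nat.card F ∧ ∃ k : ℕ, F.index = p ^ k := by
  obtain ⟨S⟩ : Nonempty (Sylow p (Subgroup.zpowers g)) := inferInstance
  refine exists_hall_of_central (S : Subgroup (Subgroup.zpowers g)) ?_ S.isPGroup' S.not_dvd_index
  intro a _
  rw [Subgroup.mem_center_iff]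
  intro b
  obtain ⟨a, i, rfl⟩ := a
  obtain ⟨b, j, rfl⟩ := b
  apply Subtype.ext
  exact zpow_mul_comm g j i

end Hall

variable {G : Type u} [Group G] [Fintype G] {p : ℕ} {M : Ideal AlgInt}
variable {N : Subgroup G} [hN : N.Normal]

/-- Good extensions to `N ⊔ E`, for `E` with a normal `p`-complement. -/
theorem exists_good (hM : IsPModular p M) {θ : IrrCharacter N} (hB : θ ∈ principalBlock M N)
    (hdet : ¬ p ∣ detOrder (θ : N → ℂ)) (hd : ¬ p ∣ charDegree (θ : N → ℂ)) {Q : Subgroup G}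
    (hQN : Q ≤ N) (hQ : ¬ p ∣ Q.relIndex N)
    (hK : ∀ (a : G) (i : ℕ), ¬ p ∣ i → a ^ i ∈ N ⊔ Subgroup.centralizer (Q : Set G) →
      ∃ n ∈ N, ∃ c ∈ Subgroup.centralizer (Q : Set G), a = n * c)
    (hinv : ∀ (g : G) (n n' : N), (n' : G) = g * (n : G) * g⁻¹ → (θ : N → ℂ) n' = (θ : N → ℂ) n)
    (E : Subgroup G)
    (hall : ∃ F : Subgroup E, F.Normal ∧ ¬ p ∣ Nat.card F ∧ ∃ k : ℕ, F.index = p ^ k) :
    ∃ ψ : (N ⊔ E : Subgroup G) → ℂ, IsGood M p N (θ : N → ℂ) (N ⊔ E) le_sup_left ψ := by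
  classical
  haveI := isPrime_of_pModular hM
  have hp := hM.1
  haveI : Fact p.Prime := ⟨hp⟩
  obtain ⟨F₀, hF₀, hF₀p, k, hk⟩ := hall
  let F : Subgroup G := F₀.map E.subtype
  have hFE : F ≤ E := by
    rintro _ ⟨f, -, rfl⟩
    exact f.2
  let A : Subgroup G := N ⊔ F
  have hNA : N ≤ A := le_sup_left
  have hAH : A ≤ N ⊔ E := sup_le_sup_left hFE N
  -- conjugation by `E`
  have hnormE : ∀ e ∈ E, ∀ a ∈ A, e * a * e⁻¹ ∈ A := by
    intro e he a ha
    rw [← SetLike.mem_coe, Subgroup.normal_mul, Set.mem_mul] at ha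
    obtain ⟨n, hn, f, hf, rfl⟩ := ha
    have h1 : e * (n * f) * e⁻¹ = (e * n * e⁻¹) * (e * f * e⁻¹) := by group
    rw [h1]
    refine A.mul_mem (hNA (hN.conj_mem n hn e)) (Subgroup.mem_sup_right ?_)
    obtain ⟨f₀, hf₀, rfl⟩ := hf
    exact ⟨⟨e, he⟩ * f₀ * (⟨e, he⟩ : E)⁻¹, hF₀.conj_mem f₀ hf₀ ⟨e, he⟩, rfl⟩
  have hnorm : ∀ h ∈ N ⊔ E, ∀ a ∈ A, h * a * h⁻¹ ∈ A := by
    intro h hh a ha
    rw [← SetLike.mem_coe, Subgroup.normal_mul, Set.mem_mul] at hh
    obtain ⟨n, hn, e, he, rfl⟩ := hh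
    have h1 : n * e * a * (n * e)⁻¹ = n * (e * a * e⁻¹) * n⁻¹ := by group
    rw [h1]
    exact A.mul_mem (A.mul_mem (hNA hn) (hnormE e he a ha)) (A.inv_mem (hNA hn))
  -- the indices
  have hcardF : Nat.card F = Nat.card F₀ :=
    Nat.card_congr (F₀.equivMapOfInjective E.subtype E.subtype_injective).symm.toEquiv
  have hA : ¬ p ∣ (N.subgroupOf A).index := by
    change ¬ p ∣ N.relIndex (N ⊔ F)
    rw [Subgroup.relIndex_sup_left]
    intro h
    apply hF₀p
    rw [← hcardF]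
    exact h.trans (Subgroup.relIndex_dvd_card N F)
  have hAK : ∀ a ∈ A, ∃ n ∈ N, ∃ c ∈ Subgroup.centralizer (Q : Set G), a = n * c := by
    intro a ha
    refine hK a (N.subgroupOf A).index hA (Subgroup.mem_sup_left ?_)
    have h1 := Subgroup.pow_index_mem (N.subgroupOf A) (⟨a, ha⟩ : A)
    exact h1
  have hreg : ∀ y : G, ¬ p ∣ orderOf y →
      ∃ n ∈ N, ∃ c ∈ Subgroup.centralizer (Q : Set G), y = n * c := by
    intro y hy
    refine hK y (orderOf y) hy ?_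
    rw [pow_orderOf_eq_one]
    exact Subgroup.one_mem _
  obtain ⟨ψA, hψA⟩ := exists_good_of_coprime hM hB hdet hQN hQ hNA hA hAK
  refine exists_good_of_pIndex hM θ.2 hd hQ hreg hinv hNA hAH hnorm ?_ hψA
  haveI hA'n : (A.subgroupOf (N ⊔ E)).Normal := ⟨fun a ha h => hnorm h h.2 a ha⟩
  have hpg : IsPGroup p ((N ⊔ E : Subgroup G) ⧸ A.subgroupOf (N ⊔ E)) := by
    intro x
    obtain ⟨⟨h, hh⟩, rfl⟩ := QuotientGroup.mk'_surjective _ x
    refine ⟨k, ?_⟩
    have hh' := hh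
    rw [← SetLike.mem_coe, Subgroup.normal_mul, Set.mem_mul] at hh'
    obtain ⟨n, hn, e, he, hne⟩ := hh'
    have hnH : n ∈ N ⊔ E := Subgroup.mem_sup_left hn
    have heH : e ∈ N ⊔ E := Subgroup.mem_sup_right he
    have h1 : (⟨h, hh⟩ : (N ⊔ E : Subgroup G)) = ⟨n, hnH⟩ * ⟨e, heH⟩ := Subtype.ext hne.symm
    rw [h1, map_mul, show QuotientGroup.mk' (A.subgroupOf (N ⊔ E)) ⟨n, hnH⟩ = 1 from
      (QuotientGroup.eq_one_iff _).mpr (hNA hn), one_mul, ← map_pow, QuotientGroup.mk'_apply,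
      QuotientGroup.eq_one_iff]
    have h2 : (⟨e, he⟩ : E) ^ p ^ k ∈ F₀ := by
      rw [← hk]
      exact Subgroup.pow_index_mem F₀ _
    have h3 : ((⟨e, he⟩ : E) ^ p ^ k : E).1 ∈ F := ⟨_, h2, rfl⟩
    have h4 : (⟨e, heH⟩ : (N ⊔ E : Subgroup G)) ^ p ^ k ∈ A.subgroupOf (N ⊔ E) := by
      change ((⟨e, heH⟩ : (N ⊔ E : Subgroup G)) ^ p ^ k : (N ⊔ E : Subgroup G)).1 ∈ A
      exact Subgroup.mem_sup_right h3
    exact h4
  obtain ⟨m, hm⟩ := IsPGroup.iff_card.mp hpg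
  exact ⟨m, by rw [Subgroup.index_eq_card, hm]⟩

end Cfsg.Agent.Lib.PRatExt.Exist
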