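import Mathlib
import Cfsg.Agent.Lib.Glauberman.Canonical
import Cfsg.Agent.Lib.Char.Galois

/-!
# `p`-rationality in terms of field automorphisms of `ℂ`
-/

set_option linter.unusedSectionVars false
set_option autoImplicit false
set_option linter.style.haveILetI false

namespace Cfsg.Agent.Lib.PRatExt.Galois

open Cfsg
open Cfsg.Agent.Lib.Char.Basic
open Cfsg.Agent.Lib.OddChar.GaloisConj

universe u

/-- A field automorphism of `ℂ` acts on `N`-th roots of unity by a power. -/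
theorem exists_pow_of_ringEquiv (σ : ℂ ≃+* ℂ) {N : ℕ} (hN : N ≠ 0) :
    ∃ k : ℕ, k.Coprime N ∧ ∀ z : ℂ, z ^ N = 1 → σ z = z ^ k := by
  haveI : NeZero N := ⟨hN⟩
  have hζ := Complex.isPrimitiveRoot_exp N hN
  set ζ := Complex.exp (2 * Real.pi * Complex.I / N) with hζdef
  have hσ : IsPrimitiveRoot (σ ζ) N := hζ.map_of_injective (f := σ) σ.injective
  obtain ⟨k, -, hk⟩ := hζ.eq_pow_of_pow_eq_one hσ.pow_eq_one
  have hcop : k.Coprime N := (hζ.pow_iff_coprime (Nat.pos_of_ne_zero hN) k).mp (hk ▸ hσ)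
  refine ⟨k, hcop, fun z hz => ?_⟩
  obtain ⟨j, -, rfl⟩ := hζ.eq_pow_of_pow_eq_one hz
  rw [map_pow, ← hk, ← pow_mul, ← pow_mul, mul_comm]

theorem modEq_of_pow_eq {ζ : ℂ} {n : ℕ} (hn : n ≠ 0) (h : IsPrimitiveRoot ζ n) {a b : ℕ}
    (hab : ζ ^ a = ζ ^ b) : a ≡ b [MOD n] := by
  have h0 : ζ ≠ 0 := h.ne_zero hn
  wlog hle : a ≤ b generalizing a b
  · exact (this hab.symm (le_of_not_ge hle)).symm
  obtain ⟨c, rfl⟩ := Nat.exists_eq_add_of_le hle
  rw [pow_add] at hab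
  have h1 : ζ ^ c = 1 := by
    have h2 : ζ ^ a ≠ 0 := pow_ne_zero _ h0
    exact (mul_left_cancel₀ h2 (hab.symm.trans (mul_one _).symm))
  have h3 : n ∣ c := h.dvd_of_pow_eq_one _ h1
  exact (Nat.modEq_iff_dvd' (Nat.le_add_right a c)).mpr (by simpa using h3)

theorem pow_eq_pow_of_modEq {z : ℂ} {n : ℕ} (hz : z ^ n = 1) {a b : ℕ} (hab : a ≡ b [MOD n]) :
    z ^ a = z ^ b := by
  rw [pow_eq_pow_mod a hz, pow_eq_pow_mod b hz, hab]

/-- Fixed by all automorphisms of `ℂ` fixing the `n`-th roots of unity. -/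
def Fix (n : ℕ) {X : Type*} (ψ : X → ℂ) : Prop :=
  ∀ σ : ℂ ≃+* ℂ, (∀ z : ℂ, z ^ n = 1 → σ z = z) → ∀ x, σ (ψ x) = ψ x

variable {p : ℕ}

/-- Values in a cyclotomic field of conductor prime to `p` give invariance under the automorphisms
fixing the `n`-th roots of unity, for `n` the `p'`-part of a multiple of the group order. -/
theorem fix_of_adjoin (hp : p.Prime) {X : Type u} [Group X] [Finite X] {χ : X → ℂ}
    (hχ : IsCharacter X χ) {a n : ℕ} (hn : ¬ p ∣ n) (hX : Nat.card X ∣ p ^ a * n) {m : ℕ}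
    (hm : ¬ p ∣ m)
    (hval : ∀ x : X, χ x ∈ IntermediateField.adjoin ℚ
      ({Complex.exp (2 * Real.pi * Complex.I / m)} : Set ℂ)) : Fix n χ := by
  intro σ hσ x
  have hn0 : n ≠ 0 := fun h => hn (h ▸ dvd_zero _)
  have hm0 : m ≠ 0 := fun h => hm (h ▸ dvd_zero _)
  have hp0 : p ^ a ≠ 0 := (pow_pos hp.pos a).ne'
  have hN : p ^ a * n ≠ 0 := mul_ne_zero hp0 hn0
  obtain ⟨k, hk, hkσ⟩ := exists_pow_of_ringEquiv σ hN
  have hcop1 : (p ^ a).Coprime (m * n) :=
    Nat.Coprime.pow_left _ ((Nat.Prime.coprime_iff_not_dvd hp).mpr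
      (fun h => (hp.dvd_mul.mp h).elim hm hn))
  obtain ⟨k', hk1, hk2⟩ := Nat.chineseRemainder hcop1 k 1
  -- `k` is `1` modulo `n`
  have hζn := Complex.isPrimitiveRoot_exp n hn0
  have hk3 : k ≡ 1 [MOD n] := by
    have h1 := hσ _ hζn.pow_eq_one
    rw [hkσ _ (by rw [pow_mul', hζn.pow_eq_one, one_pow])] at h1
    have h2 : Complex.exp (2 * Real.pi * Complex.I / n) ^ k =
        Complex.exp (2 * Real.pi * Complex.I / n) ^ 1 := by rw [h1, pow_one]
    exact modEq_of_pow_eq hn0 hζn h2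
  have hk'p : k'.Coprime (p ^ a) := by
    have h1 := hk1.gcd_eq
    rw [Nat.Coprime, h1]
    exact Nat.Coprime.coprime_mul_right_right hk
  have hk'mn : k'.Coprime (m * n) := by
    have h1 := hk2.gcd_eq
    rw [Nat.Coprime, h1]
    exact Nat.gcd_one_left _
  have hN' : p ^ a * (m * n) ≠ 0 := mul_ne_zero hp0 (mul_ne_zero hm0 hn0)
  obtain ⟨σ', hσ'⟩ := exists_ringEquiv_pow (p ^ a * (m * n)) k' hN' (Nat.Coprime.mul_right hk'p hk'mn)
  -- `σ'` fixes the `m`-th root of unity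
  have hζm := Complex.isPrimitiveRoot_exp m hm0
  set ζ := Complex.exp (2 * Real.pi * Complex.I / m) with hζdef
  have hfix : σ' ζ = ζ := by
    have h1 : ζ ^ (p ^ a * (m * n)) = 1 := by
      rw [show p ^ a * (m * n) = m * (p ^ a * n) by ring, pow_mul, hζm.pow_eq_one, one_pow]
    rw [hσ' ζ h1]
    have h2 : k' ≡ 1 [MOD m] := hk2.of_dvd (Dvd.intro n rfl)
    have h3 := pow_eq_pow_of_modEq hζm.pow_eq_one h2
    rwa [pow_one] at h3
  have hv0 : ∀ y ∈ IntermediateField.adjoin ℚ ({ζ} : Set ℂ), σ' y = y := by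
    intro y hy
    induction hy using IntermediateField.adjoin_induction with
    | mem y hy =>
      rw [Set.mem_singleton_iff] at hy
      rw [hy, hfix]
    | algebraMap r =>
      simp
    | add a b _ _ ha hb => rw [map_add, ha, hb]
    | inv a _ ha => rw [map_inv₀, ha]
    | mul a b _ _ ha hb => rw [map_mul, ha, hb]
  have hv : σ' (χ x) = χ x := hv0 _ (hval x)
  have h1 : σ (χ x) = χ (x ^ k) :=
    comp_character_eq (f := (σ : ℂ →+* ℂ)) hkσ hX hχ x
  have h2 : σ' (χ x) = χ (x ^ k') :=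
    comp_character_eq (f := (σ' : ℂ →+* ℂ)) hσ' (hX.trans (by
      rw [show p ^ a * (m * n) = m * (p ^ a * n) by ring]
      exact dvd_mul_left _ _)) hχ x
  have h3 : x ^ k' = x ^ k := by
    apply pow_eq_pow_iff_modEq.mpr
    have h4 : k' ≡ k [MOD p ^ a * n] := by
      have hc : (p ^ a).Coprime n :=
        Nat.Coprime.pow_left _ ((Nat.Prime.coprime_iff_not_dvd hp).mpr hn)
      refine (Nat.modEq_and_modEq_iff_modEq_mul hc).mp ⟨hk1, ?_⟩
      exact (hk2.of_dvd (Dvd.intro_left m rfl)).trans hk3.symm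
    exact h4.of_dvd ((orderOf_dvd_natCard x).trans hX)
  rw [h1, ← h3, ← h2, hv]

/-- A `p`-rational character has determinantal order prime to `p`, when `p` is odd. -/
theorem not_dvd_detOrder (hp : p.Prime) (hodd : p ≠ 2) {X : Type u} [Group X] [Finite X] {χ : X → ℂ}
    (hχ : IsCharacter X χ) {a n : ℕ} (hn : ¬ p ∣ n) (hX : Nat.card X ∣ p ^ a * n)
    (hfix : Fix n χ) : ¬ p ∣ detOrder χ := by
  have hn0 : n ≠ 0 := fun h => hn (h ▸ dvd_zero _)
  have hcop1 : (p ^ (a + 1)).Coprime n :=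
    Nat.Coprime.pow_left _ ((Nat.Prime.coprime_iff_not_dvd hp).mpr hn)
  obtain ⟨k, hk1, hk2⟩ := Nat.chineseRemainder hcop1 2 1
  have h2p : (2 : ℕ).Coprime p := (Nat.coprime_primes Nat.prime_two hp).mpr (Ne.symm hodd)
  have hkp : k.Coprime (p ^ (a + 1)) := by
    have h1 := hk1.gcd_eq
    rw [Nat.Coprime, h1]
    exact Nat.Coprime.pow_right _ h2p
  have hkn : k.Coprime n := by
    have h1 := hk2.gcd_eq
    rw [Nat.Coprime, h1]
    exact Nat.gcd_one_left _
  have hp0 : p ^ (a + 1) ≠ 0 := (pow_pos hp.pos _).ne'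
  obtain ⟨σ, hσ⟩ := exists_ringEquiv_pow (p ^ (a + 1) * n) k (mul_ne_zero hp0 hn0)
    (Nat.Coprime.mul_right hkp hkn)
  have hσfix : ∀ z : ℂ, z ^ n = 1 → σ z = z := by
    intro z hz
    rw [hσ z (by rw [pow_mul', hz, one_pow])]
    have h1 : z ^ k = z ^ 1 := pow_eq_pow_of_modEq hz hk2
    rwa [pow_one] at h1
  have hcomp : ((σ : ℂ →+* ℂ) ∘ χ) = χ := by
    funext x
    exact hfix σ hσfix x
  have hdvd : Nat.card X ∣ p ^ (a + 1) * n := by
    refine hX.trans ?_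
    rw [pow_succ, mul_assoc]
    exact mul_dvd_mul_left _ (dvd_mul_left _ _)
  have hdet : ∀ x : X, (detChar χ x) ^ (p ^ (a + 1) * n) = 1 := by
    intro x
    have h1 : (detChar χ) ^ Nat.card X = 1 := by
      have := Cfsg.Agent.Lib.Glauberman.Canonical.detOrder_dvd_card hχ
      obtain ⟨c, hc⟩ := this
      unfold detOrder at hc
      rw [hc, pow_mul, pow_orderOf_eq_one, one_pow]
    have h2 : (detChar χ x) ^ Nat.card X = 1 := by
      have := congrFun h1 x
      simpa using this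
    obtain ⟨c, hc⟩ := hdvd
    rw [hc, pow_mul, h2, one_pow]
  have hk0 : 1 ≤ k := Nat.pos_of_ne_zero (fun h => by
    subst h
    have h1 : Nat.gcd 0 (p ^ (a + 1)) = 1 := hkp
    rw [Nat.gcd_zero_left] at h1
    have h2 : 1 < p ^ (a + 1) := Nat.one_lt_pow (Nat.succ_ne_zero a) hp.one_lt
    omega)
  have hpow : (detChar χ) ^ (k - 1) = 1 := by
    funext x
    have h1 : detChar ((σ : ℂ →+* ℂ) ∘ χ) x = σ (detChar χ x) :=
      Cfsg.Agent.Lib.Glauberman.Canonical.detChar_comp_ringHom (σ : ℂ →+* ℂ) hχ x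
    rw [hcomp, hσ _ (hdet x)] at h1
    have h0 : detChar χ x ≠ 0 := by
      intro h
      have h3 := hdet x
      rw [h, zero_pow (mul_ne_zero hp0 hn0)] at h3
      exact zero_ne_one h3
    have h3 : (detChar χ x) ^ (k - 1) * detChar χ x = detChar χ x := by
      rw [← pow_succ, Nat.sub_add_cancel hk0]
      exact h1.symm
    have h4 := mul_right_cancel₀ h0 (h3.trans (one_mul _).symm)
    simpa using h4
  have hord : detOrder χ ∣ k - 1 := orderOf_dvd_of_pow_eq_one hpow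
  intro hdvdp
  have hd : p ∣ k - 1 := hdvdp.trans hord
  have h1 : k ≡ 2 [MOD p] := hk1.of_dvd (dvd_pow_self p (Nat.succ_ne_zero a))
  have h2 : 1 ≡ k [MOD p] := (Nat.modEq_iff_dvd' hk0).mpr hd
  have h3 : 1 ≡ 2 [MOD p] := h2.trans h1
  have h4 : p ∣ 2 - 1 := (Nat.modEq_iff_dvd' (by norm_num)).mp h3
  have h5 := Nat.le_of_dvd (by norm_num) h4
  have := hp.one_lt
  omega

/-- Conversely, an invariant character value lies in the cyclotomic field. -/
theorem mem_adjoin_of_fix {X : Type u} [Group X] [Finite X] {χ : X → ℂ}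
    (hχ : IsCharacter X χ) {n : ℕ} (hn0 : n ≠ 0) (hfix : Fix n χ) (x : X) :
    χ x ∈ IntermediateField.adjoin ℚ ({Complex.exp (2 * Real.pi * Complex.I / n)} : Set ℂ) := by
  open Cfsg.Agent.Lib.Char.Galois in
  have hN0 : Nat.card X * n ≠ 0 := mul_ne_zero Nat.card_pos.ne' hn0
  haveI : NeZero (Nat.card X * n) := ⟨hN0⟩
  set K₁ := Kn (Nat.card X * n) with hK₁
  set K₀ := IntermediateField.adjoin ℚ ({Complex.exp (2 * Real.pi * Complex.I / n)} : Set ℂ) with hK₀
  have hζ := Complex.isPrimitiveRoot_exp n hn0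
  have hroot : ∀ z : ℂ, z ^ n = 1 → z ∈ K₀ := by
    intro z hz
    haveI : NeZero n := ⟨hn0⟩
    obtain ⟨i, -, rfl⟩ := hζ.eq_pow_of_pow_eq_one hz
    exact pow_mem (IntermediateField.mem_adjoin_simple_self ℚ _) i
  have hle : K₀ ≤ K₁ := by
    rw [hK₀, IntermediateField.adjoin_simple_le_iff]
    refine mem_Kn_of_pow_eq_one hN0 ?_
    rw [pow_mul', hζ.pow_eq_one, one_pow]
  have hχK : χ x ∈ K₁ := by
    obtain ⟨d, ρ, rfl⟩ := hχ
    refine character_mem_Kn ρ hN0 ?_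
    obtain ⟨c, hc⟩ : Nat.card X ∣ Nat.card X * n := dvd_mul_right _ _
    rw [hc, pow_mul, pow_card_eq_one', one_pow]
  let F : IntermediateField ℚ K₁ := IntermediateField.restrict hle
  have hmem : (⟨χ x, hχK⟩ : K₁) ∈ F := by
    rw [← IsGalois.fixedField_fixingSubgroup F, IntermediateField.mem_fixedField_iff]
    intro f hf
    obtain ⟨σ, hσ⟩ := exists_ringEquiv_extend K₁ f.toRingEquiv
    have h1 : σ (χ x) = χ x := by
      apply hfix σ
      intro z hz
      have hz₀ := hroot z hz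
      have hz₁ : z ∈ K₁ := hle hz₀
      have h2 := hσ ⟨z, hz₁⟩
      have h3 : f ⟨z, hz₁⟩ = ⟨z, hz₁⟩ := by
        have h4 : (⟨z, hz₁⟩ : K₁) ∈ F := (IntermediateField.mem_restrict hle _).mpr hz₀
        exact (mem_fixingSubgroup_iff _).mp hf _ h4
      rw [show ((f.toRingEquiv ⟨z, hz₁⟩ : K₁) : ℂ) = z from by
        change ((f ⟨z, hz₁⟩ : K₁) : ℂ) = z
        rw [h3]] at h2
      exact h2
    have h2 := hσ ⟨χ x, hχK⟩
    apply Subtype.ext
    change ((f.toRingEquiv ⟨χ x, hχK⟩ : K₁) : ℂ) = χ x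
    rw [← h2]
    exact h1
  exact (IntermediateField.mem_restrict hle _).mp hmem

end Cfsg.Agent.Lib.PRatExt.Galois
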