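import Mathlib
import Cfsg.Agent.Lib.CharDeep.GallagherExt
import Cfsg.Agent.Lib.Char.Brauer
import Cfsg.Agent.Lib.Char.Extend
import Cfsg.Agent.Lib.Frobenius.Theorem
import Cfsg.Agent.Lib.Char.Conj
import Cfsg.Agent.Lib.Char.Degree

/-!
# Gluing a coherent family of extensions with Brauer's characterization of characters

Let `θ` be an irreducible character of `N ⊴ G`.  Given extensions of `θ` to a family of subgroups
containing every `N ⊔ E`, with `E` elementary, which are compatible with inclusions and conjugation,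
there is a common extension to `G`.
-/

set_option linter.unusedSectionVars false
set_option autoImplicit false
set_option linter.style.haveILetI false

namespace Cfsg.Agent.Lib.PRatExt.Glue

open Cfsg
open Cfsg.Agent.Lib.Char.Basic Cfsg.Agent.Lib.Char.Ortho Cfsg.Agent.Lib.Char.Complete
open scoped ComplexConjugate

universe u

variable {G : Type u} [Group G] [Fintype G]

/-- The conjugate of a subgroup. -/
abbrev conjS (H : Subgroup G) (h : G) : Subgroup G := H.map (MulAut.conj h).toMonoidHom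

theorem conj_mem_conjS (H : Subgroup G) (h : G) {x : G} (hx : x ∈ H) : h * x * h⁻¹ ∈ conjS H h :=
  ⟨x, hx, rfl⟩

theorem glue {N : Subgroup G} (θ : IrrCharacter N)
    (C : Subgroup G → Prop) (hCN : ∀ H, C H → N ≤ H)
    (e : ∀ H, C H → IrrCharacter H)
    (hext : ∀ H (hH : C H) (n : N), (e H hH : H → ℂ) ⟨n, hCN H hH n.2⟩ = (θ : N → ℂ) n)
    (hcoh : ∀ H' H (hH' : C H') (hH : C H) (hle : H' ≤ H) (x : H'),
      (e H' hH' : H' → ℂ) x = (e H hH : H → ℂ) ⟨x, hle x.2⟩)
    (hmap : ∀ H (h : G), C H → C (conjS H h))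
    (hconj : ∀ H (hH : C H) (h : G) (x : H),
      (e _ (hmap H h hH) : conjS H h → ℂ) ⟨h * x * h⁻¹, conj_mem_conjS H h x.2⟩ = (e H hH : H → ℂ) x)
    (hcyc : ∀ g : G, C (N ⊔ Subgroup.zpowers g))
    (helem : ∀ (E : Subgroup G) (q : ℕ), q.Prime → IsElementary q E → C (N ⊔ E)) :
    ∃ χ : IrrCharacter G, ∀ H (hH : C H) (x : H), (χ : G → ℂ) x = (e H hH : H → ℂ) x := by
  classical
  letI : Fintype N := Fintype.ofFinite N
  let Lg : G → Subgroup G := fun g => N ⊔ Subgroup.zpowers g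
  have hLg1 : ∀ g, N ≤ Lg g := fun g => le_sup_left
  have hLgm : ∀ g, g ∈ Lg g := fun g => Subgroup.mem_sup_right (Subgroup.mem_zpowers g)
  let τ : G → ℂ := fun g => (e (Lg g) (hcyc g) : Lg g → ℂ) ⟨g, hLgm g⟩
  have ht : ∀ (L : Subgroup G) (hL : C L) (g : L), τ g = (e L hL : L → ℂ) g := by
    intro L hL g
    exact hcoh (Lg g) L (hcyc g) hL (sup_le (hCN L hL) ((Subgroup.zpowers_le).mpr g.2)) ⟨g, hLgm g⟩
  have hτN : ∀ n : N, τ n = (θ : N → ℂ) n := by
    intro n
    rw [ht (Lg n) (hcyc n) ⟨n, hLg1 n n.2⟩]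
    exact hext _ _ n
  -- class function
  have hcf : IsClassFunction G τ := by
    intro g h
    have h1 := hconj (Lg g) (hcyc g) h ⟨g, hLgm g⟩
    have h2 := ht _ (hmap (Lg g) h (hcyc g)) ⟨h * g * h⁻¹, conj_mem_conjS _ h (hLgm g)⟩
    exact h2.trans h1
  -- Brauer's characterization
  have hgen : IsGeneralizedCharacter G τ := by
    refine Cfsg.Agent.Lib.Char.Brauer.isGenChar_of_restrict_elementary hcf ?_
    intro E q hq hE
    have hne : C (N ⊔ E) := helem E q hq hE
    refine ⟨(e (N ⊔ E) hne : (N ⊔ E : Subgroup G) → ℂ) ∘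
        Subgroup.inclusion (le_sup_right : E ≤ N ⊔ E), 0,
      isCharacter_comp _ (isCharacter_of_isIrrCharacter (e _ _).2), isCharacter_zero, ?_⟩
    funext x
    rw [sub_zero]
    exact ht (N ⊔ E) hne ⟨x, Subgroup.mem_sup_right x.2⟩
  -- the norm
  have hsum : ∀ g : G, ∑ n : N, τ ((n : G) * g) * conj (τ ((n : G) * g)) = Nat.card N := by
    intro g
    let L := Lg g
    let ψ := e L (hcyc g)
    let σ : N.subgroupOf L ≃* N := Subgroup.subgroupOfEquivOfLe (hLg1 g)
    letI : Fintype L := Fintype.ofFinite _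
    letI : Fintype (N.subgroupOf L) := Fintype.ofFinite _
    have hres : IsIrrCharacter (N.subgroupOf L) (fun n : N.subgroupOf L => (ψ : L → ℂ) n) := by
      have h1 : (fun n : N.subgroupOf L => (ψ : L → ℂ) n) = (θ : N → ℂ) ∘ σ := by
        funext n
        exact hext L (hcyc g) (σ n)
      rw [h1]
      exact Cfsg.Agent.Lib.Char.Conj.isIrrCharacter_comp_mulEquiv σ θ.2
    have h1 := Cfsg.Agent.Lib.CharDeep.GallagherExt.eta_self_eq_one (N.subgroupOf L)
      (isCharacter_of_isIrrCharacter ψ.2) hres ⟨g, hLgm g⟩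
    rw [Cfsg.Agent.Lib.CharDeep.GallagherExt.eta] at h1
    have hcard : Nat.card (N.subgroupOf L) = Nat.card N := Nat.card_congr σ.toEquiv
    have hc0 : (Nat.card N : ℂ) ≠ 0 := by exact_mod_cast Nat.card_pos.ne'
    rw [hcard] at h1
    have h2 : ∑ n : N, τ ((n : G) * g) * conj (τ ((n : G) * g)) =
        ∑ n : N.subgroupOf L, (ψ : L → ℂ) ((n : L) * ⟨g, hLgm g⟩) * conj ((ψ : L → ℂ) ((n : L) * ⟨g, hLgm g⟩)) := by
      refine (Fintype.sum_equiv σ.toEquiv _ _ fun n => ?_).symm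
      have h3 := ht L (hcyc g) ((n : L) * ⟨g, hLgm g⟩)
      have h4 : (((n : L) * ⟨g, hLgm g⟩ : L) : G) = ((σ n : N) : G) * g := rfl
      rw [h4] at h3
      change _ = τ (((σ n : N) : G) * g) * conj (τ (((σ n : N) : G) * g))
      rw [h3]
    rw [h2]
    field_simp at h1
    exact h1
  have hnorm : classInner τ τ = 1 := by
    rw [classInner_def, Cfsg.Agent.Lib.CharDeep.GallagherExt.sum_eq_avg N]
    simp only [hsum, Finset.sum_const, Finset.card_univ, nsmul_eq_mul, ← Nat.card_eq_fintype_card]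
    have hc0 : (Nat.card N : ℂ) ≠ 0 := by exact_mod_cast Nat.card_pos.ne'
    have hG0 : (Nat.card G : ℂ) ≠ 0 := by exact_mod_cast Nat.card_pos.ne'
    field_simp
  have hτ1 : τ 1 = (θ : N → ℂ) 1 := hτN 1
  have hpos : 0 < (τ 1).re := by
    rw [hτ1, ← Cfsg.Agent.Lib.Char.Degree.charDegree_natCast (isCharacter_of_isIrrCharacter θ.2),
      Complex.natCast_re]
    exact_mod_cast Cfsg.Agent.Lib.Char.Degree.charDegree_pos θ.2
  have hirr : IsIrrCharacter G τ :=
    Cfsg.Agent.Lib.Frobenius.Theorem.isIrrCharacter_of_generalized hgen hnorm hpos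
  exact ⟨⟨τ, hirr⟩, fun H hH x => ht H hH x⟩

end Cfsg.Agent.Lib.PRatExt.Glue
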