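import Mathlib
import Cfsg.Agent.Lib.PRatExt.Exist
import Cfsg.Agent.Lib.PRatExt.Glue
import Cfsg.Agent.Lib.PRatExt.Galois

/-!
# `p`-rational extensions in the principal block
-/

set_option linter.unusedSectionVars false
set_option autoImplicit false
set_option linter.style.haveILetI false

namespace Cfsg.Agent.Lib.PRatExt.Main

open Cfsg
open Cfsg.Agent.Lib.Blocks.Local
open Cfsg.Agent.Lib.Char.Basic Cfsg.Agent.Lib.Char.Ortho Cfsg.Agent.Lib.Char.Complete
open Cfsg.Agent.Lib.PRatExt.Good Cfsg.Agent.Lib.PRatExt.Exist Cfsg.Agent.Lib.PRatExt.Galois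
open Cfsg.Agent.Lib.PRatExt.Glue

universe u

variable {G : Type u} [Group G] [Fintype G] {p : ℕ} {M : Ideal AlgInt}

/-- The subgroup `N C_G(Q)` is normal, by the Frattini argument. -/
theorem normal_sup_centralizer {N : Subgroup G} [hN : N.Normal] [Fact p.Prime] (Q : Sylow p N) :
    (N ⊔ Subgroup.centralizer (((Q : Subgroup N).map N.subtype : Subgroup G) : Set G)).Normal := by
  set Q' : Subgroup G := (Q : Subgroup N).map N.subtype with hQ'
  set K : Subgroup G := N ⊔ Subgroup.centralizer (Q' : Set G) with hK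
  have hconj : ∀ m ∈ Subgroup.normalizer (Q' : Set G), ∀ k ∈ K, m * k * m⁻¹ ∈ K := by
    intro m hm k hk
    rw [hK, ← SetLike.mem_coe, Subgroup.normal_mul, Set.mem_mul] at hk
    obtain ⟨n, hn, c, hc, rfl⟩ := hk
    have h1 : m * (n * c) * m⁻¹ = (m * n * m⁻¹) * (m * c * m⁻¹) := by group
    rw [h1]
    refine Subgroup.mul_mem_sup (hN.conj_mem n hn m) ?_
    rw [Subgroup.mem_centralizer_iff]
    intro q hq
    have h2 : m⁻¹ * q * m ∈ Q' := by
      have h3 := (Subgroup.mem_normalizer_iff.mp (Subgroup.inv_mem _ hm) q).mp hq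
      simpa using h3
    have h3 := (Subgroup.mem_centralizer_iff.mp hc) _ h2
    have e1 : q * (m * c * m⁻¹) = m * ((m⁻¹ * q * m) * c) * m⁻¹ := by group
    have e2 : (m * c * m⁻¹) * q = m * (c * (m⁻¹ * q * m)) * m⁻¹ := by group
    rw [e1, e2, h3]
  have hle : Subgroup.normalizer (Q' : Set G) ⊔ N ≤ Subgroup.normalizer (K : Set G) := by
    refine sup_le ?_ (le_trans le_sup_left Subgroup.le_normalizer)
    intro m hm
    rw [Subgroup.mem_normalizer_iff]
    intro k
    constructor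
    · exact hconj m hm k
    · intro hk
      have h1 := hconj m⁻¹ (Subgroup.inv_mem _ hm) _ hk
      simpa [mul_assoc] using h1
  have htop := Sylow.normalizer_sup_eq_top (N := N) Q
  rw [← hQ'] at htop
  rw [htop] at hle
  exact Subgroup.normalizer_eq_top_iff.mp (top_le_iff.mp hle)

theorem main (hM : IsPModular p M) (hodd : p ≠ 2) (N : Subgroup G) [hN : N.Normal]
    (θ : IrrCharacter N)
    (hinv : ∀ g : G, ∀ n n' : N, (n' : G) = g * (n : G) * g⁻¹ → (θ : N → ℂ) n' = (θ : N → ℂ) n)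
    (hdeg : ¬ p ∣ charDegree (θ : N → ℂ))
    (hrat : ∃ m : ℕ, ¬ p ∣ m ∧ ∀ n : N, (θ : N → ℂ) n ∈ IntermediateField.adjoin ℚ
      ({Complex.exp (2 * Real.pi * Complex.I / m)} : Set ℂ))
    (hB : θ ∈ principalBlock M N) [Fact p.Prime] (Q : Sylow p N)
    (hidx : ∃ a : ℕ, (N ⊔ Subgroup.centralizer
      (((Q : Subgroup N).map N.subtype : Subgroup G) : Set G)).index = p ^ a) :
    ∃ χ : IrrCharacter G, χ ∈ principalBlock M G ∧
      (∃ n : ℕ, ¬ p ∣ n ∧ ∀ g : G, (χ : G → ℂ) g ∈ IntermediateField.adjoin ℚ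
        ({Complex.exp (2 * Real.pi * Complex.I / n)} : Set ℂ)) ∧
      ∀ n : N, (χ : G → ℂ) n = (θ : N → ℂ) n := by
  classical
  haveI := isPrime_of_pModular hM
  have hp := hM.1
  haveI hKn := normal_sup_centralizer Q
  set Q' : Subgroup G := (Q : Subgroup N).map N.subtype with hQ'
  have hQN : Q' ≤ N := by
    rintro _ ⟨q, -, rfl⟩
    exact q.2
  have hQi : ¬ p ∣ Q'.relIndex N := by
    have h1 : Q'.relIndex N = (Q : Subgroup N).index := by
      rw [Subgroup.relIndex, hQ']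
      exact congrArg Subgroup.index
        (Subgroup.comap_map_eq_self_of_injective N.subtype_injective (Q : Subgroup N))
    rw [h1]
    exact Q.not_dvd_index
  obtain ⟨t, ht⟩ := hidx
  have hKmem : ∀ (a : G) (i : ℕ), ¬ p ∣ i → a ^ i ∈ N ⊔ Subgroup.centralizer (Q' : Set G) →
      ∃ n ∈ N, ∃ c ∈ Subgroup.centralizer (Q' : Set G), a = n * c := by
    intro a i hi ha
    have h1 : (QuotientGroup.mk' (N ⊔ Subgroup.centralizer (Q' : Set G)) a) ^ i = 1 := by
      rw [← map_pow]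
      exact (QuotientGroup.eq_one_iff _).mpr ha
    have h2 : (QuotientGroup.mk' (N ⊔ Subgroup.centralizer (Q' : Set G)) a) ^ p ^ t = 1 := by
      rw [← ht, Subgroup.index_eq_card]
      exact pow_card_eq_one'
    have h3 := pow_gcd_eq_one.mpr ⟨h1, h2⟩
    rw [(Nat.Coprime.pow_right _ ((Nat.Prime.coprime_iff_not_dvd hp).mpr hi).symm :
      Nat.gcd i (p ^ t) = 1), pow_one] at h3
    have h4 : a ∈ N ⊔ Subgroup.centralizer (Q' : Set G) := (QuotientGroup.eq_one_iff _).mp h3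
    rw [← SetLike.mem_coe, Subgroup.normal_mul, Set.mem_mul] at h4
    obtain ⟨n, hn, c, hc, rfl⟩ := h4
    exact ⟨n, hn, c, hc, rfl⟩
  have hreg : ∀ y : G, ¬ p ∣ orderOf y →
      ∃ n ∈ N, ∃ c ∈ Subgroup.centralizer (Q' : Set G), y = n * c := by
    intro y hy
    refine hKmem y (orderOf y) hy ?_
    rw [pow_orderOf_eq_one]
    exact Subgroup.one_mem _
  -- the `p'`-part of the order of `G`
  obtain ⟨a, n₀, hn₀, hcard⟩ := Nat.exists_eq_pow_mul_and_not_dvd
    (Nat.card_pos (α := G)).ne' p hp.ne_one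
  have hn₀0 : n₀ ≠ 0 := fun h => hn₀ (h ▸ dvd_zero _)
  obtain ⟨m, hm, hval⟩ := hrat
  have hθc := isCharacter_of_isIrrCharacter θ.2
  have hNdvd : Nat.card N ∣ p ^ a * n₀ := hcard ▸ Subgroup.card_subgroup_dvd_card N
  have hfix : Fix n₀ (θ : N → ℂ) := fix_of_adjoin hp hθc hn₀ hNdvd hm hval
  have hdet : ¬ p ∣ detOrder (θ : N → ℂ) := not_dvd_detOrder hp hodd hθc hn₀ hNdvd hfix
  -- the family
  let C : Subgroup G → Prop := fun H => ∃ hNH : N ≤ H, ∃ ψ : H → ℂ, IsGood M p N (θ : N → ℂ) H hNH ψ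
  have hCN : ∀ H, C H → N ≤ H := fun H hH => hH.1
  let ef : ∀ H, C H → (H → ℂ) := fun H hH => hH.2.choose
  have hef : ∀ H (hH : C H), IsGood M p N (θ : N → ℂ) H (hCN H hH) (ef H hH) :=
    fun H hH => hH.2.choose_spec
  let e : ∀ H, C H → IrrCharacter H := fun H hH => ⟨ef H hH, (hef H hH).irr θ.2⟩
  have huniq : ∀ H (hNH : N ≤ H) (ψ₁ ψ₂ : H → ℂ), IsGood M p N (θ : N → ℂ) H hNH ψ₁ →
      IsGood M p N (θ : N → ℂ) H hNH ψ₂ → ψ₁ = ψ₂ := fun H hNH ψ₁ ψ₂ h₁ h₂ =>
    IsGood.unique hM θ.2 hdeg hQi hreg h₁ h₂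
  have hcoh : ∀ H' H (hH' : C H') (hH : C H) (hle : H' ≤ H) (x : H'),
      (e H' hH' : H' → ℂ) x = (e H hH : H → ℂ) ⟨x, hle x.2⟩ := by
    intro H' H hH' hH hle x
    have h1 := (hef H hH).restrict (hCN H' hH') hle
    have h2 := huniq H' (hCN H' hH') _ _ (hef H' hH') h1
    exact congrFun h2 x
  -- conjugates
  have hNconj : ∀ (H : Subgroup G) (h : G), N ≤ H → N ≤ conjS H h := by
    intro H h hNH n hn
    refine ⟨h⁻¹ * n * h, hNH (by simpa using hN.conj_mem n hn h⁻¹), ?_⟩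
    simp [mul_assoc]
  let sg : ∀ (H : Subgroup G) (h : G), conjS H h ≃* H := fun H h =>
    ((MulAut.conj h).subgroupMap H).symm
  have hsg : ∀ (H : Subgroup G) (h : G) (x : conjS H h), ((sg H h x : H) : G) = h⁻¹ * x * h := by
    intro H h x
    have h1 : (MulAut.conj h).subgroupMap H (sg H h x) = x := MulEquiv.apply_symm_apply _ _
    have h2 := congrArg Subtype.val h1
    change h * ((sg H h x : H) : G) * h⁻¹ = (x : G) at h2
    have key : ∀ y n' : G, h * y * h⁻¹ = n' → y = h⁻¹ * n' * h := by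
      rintro y _ rfl
      group
    exact key _ _ h2
  have hsg' : ∀ (H : Subgroup G) (h : G) (x : H), sg H h ⟨h * x * h⁻¹, conj_mem_conjS H h x.2⟩ = x := by
    intro H h x
    apply Subtype.ext
    rw [hsg]
    simp [mul_assoc]
  have hgconj : ∀ (H : Subgroup G) (h : G) (hNH : N ≤ H) {ψ : H → ℂ},
      IsGood M p N (θ : N → ℂ) H hNH ψ →
      IsGood M p N (θ : N → ℂ) (conjS H h) (hNconj H h hNH) (ψ ∘ sg H h) := by
    intro H h hNH ψ hψ
    exact hψ.conj (hNconj H h hNH) h⁻¹ (sg H h) (fun x => by rw [hsg]; simp) hinv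
  have hmap : ∀ H (h : G), C H → C (conjS H h) := by
    intro H h hH
    exact ⟨hNconj H h (hCN H hH), _, hgconj H h (hCN H hH) (hef H hH)⟩
  have hconj : ∀ H (hH : C H) (h : G) (x : H),
      (e _ (hmap H h hH) : conjS H h → ℂ) ⟨h * x * h⁻¹, conj_mem_conjS H h x.2⟩ =
        (e H hH : H → ℂ) x := by
    intro H hH h x
    have h1 := huniq _ (hCN _ (hmap H h hH)) _ _ (hef _ (hmap H h hH))
      (hgconj H h (hCN H hH) (hef H hH))
    have h2 := congrFun h1 ⟨h * x * h⁻¹, conj_mem_conjS H h x.2⟩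
    rw [Function.comp_apply, hsg'] at h2
    exact h2
  have hex : ∀ E : Subgroup G,
      (∃ F : Subgroup E, F.Normal ∧ ¬ p ∣ Nat.card F ∧ ∃ k : ℕ, F.index = p ^ k) → C (N ⊔ E) := by
    intro E hall
    exact ⟨le_sup_left, exists_good hM hB hdet hdeg hQN hQi hKmem hinv E hall⟩
  have hcyc : ∀ g : G, C (N ⊔ Subgroup.zpowers g) := fun g => hex _ (exists_hall_of_zpowers g)
  have helem : ∀ (E : Subgroup G) (q : ℕ), q.Prime → IsElementary q E → C (N ⊔ E) :=
    fun E q hq hE => hex E (exists_hall_of_elementary hq hE)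
  obtain ⟨χ, hχ⟩ := glue θ C hCN e (fun H hH n => (hef H hH).ext n) hcoh hmap hconj hcyc helem
  -- values
  have hmemg : ∀ g : G, g ∈ N ⊔ Subgroup.zpowers g := fun g =>
    Subgroup.mem_sup_right (Subgroup.mem_zpowers g)
  have hval' : ∀ g : G, (χ : G → ℂ) g = ef _ (hcyc g) ⟨g, hmemg g⟩ := fun g =>
    hχ _ (hcyc g) ⟨g, hmemg g⟩
  have hχN : ∀ n : N, (χ : G → ℂ) n = (θ : N → ℂ) n := by
    intro n
    rw [hval']
    exact (hef _ (hcyc n)).ext n
  have hdN : (θ : N → ℂ) 1 = (charDegree (θ : N → ℂ) : ℂ) :=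
    (Cfsg.Agent.Lib.Char.Degree.charDegree_natCast hθc).symm
  have hχ1 : (χ : G → ℂ) 1 = (charDegree (θ : N → ℂ) : ℂ) := by
    rw [← hdN]
    exact hχN 1
  refine ⟨χ, ?_, ⟨n₀, hn₀, fun g => ?_⟩, hχN⟩
  · refine mem_principal_generic hM χ hdeg hχ1 fun y hy => ?_
    obtain ⟨t', -, ht'⟩ := index_factor N (Subgroup.centralizer ({y} : Set G))
    rw [ht']
    push_cast
    have h1 := (hef _ (hcyc y)).cond ⟨y, hmemg y⟩ (by
      rwa [Subgroup.orderOf_mk])
    have h2 : ((iota N y : ℕ) : ℂ) * (((charDegree (θ : N → ℂ) : ℕ) : ℂ) - (χ : G → ℂ) y) =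
        ((iota N y : ℕ) : ℂ) * ((θ : N → ℂ) 1 - ef _ (hcyc y) ⟨y, hmemg y⟩) := by
      rw [hval', hdN]
    have h3 := memLocalIdeal_mul_left (memLocalRing_natCast (M := M) t') h1
    rw [← h2] at h3
    convert h3 using 1
    change _ = _ * ((iota N y : ℂ) * _)
    unfold iota
    ring
  · refine mem_adjoin_of_fix (isCharacter_of_isIrrCharacter χ.2) hn₀0 ?_ g
    intro σ hσ x
    rw [hval']
    set H := N ⊔ Subgroup.zpowers x with hH
    have hg := hef H (hcyc x)
    -- the Galois conjugate is good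
    have hgσ : IsGood M p N (θ : N → ℂ) H (hCN H (hcyc x)) ((σ : ℂ →+* ℂ) ∘ ef H (hcyc x)) := by
      refine ⟨Cfsg.Agent.Lib.OddChar.GaloisConj.isCharacter_comp_ringHom _ hg.char, ?_, ?_, ?_⟩
      · intro n
        change σ (ef H (hcyc x) ⟨n, _⟩) = _
        rw [hg.ext n]
        exact hfix σ hσ n
      · rw [Cfsg.Agent.Lib.Glauberman.Canonical.detOrder_comp_ringHom σ hg.char]
        exact hg.det
      · intro y hy
        have hyo : orderOf y ∣ n₀ := by
          have h1 : orderOf y ∣ p ^ a * n₀ := by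
            rw [← hcard, ← Subgroup.orderOf_coe]
            exact orderOf_dvd_natCard _
          exact Nat.Coprime.dvd_of_dvd_mul_left
            (Nat.Coprime.pow_right _ ((Nat.Prime.coprime_iff_not_dvd hp).mpr hy).symm) h1
        have hfixy : σ (ef H (hcyc x) y) = ef H (hcyc x) y := by
          obtain ⟨d, ρ, hρ⟩ := hg.char
          rw [← hρ]
          obtain ⟨μ, h1, h2⟩ := Cfsg.Agent.Lib.Char.Eigen.character_eq_sum_roots' ρ y
          rw [h2, map_sum]
          refine Finset.sum_congr rfl fun i _ => hσ _ ?_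
          obtain ⟨c, hc⟩ := hyo
          rw [hc, pow_mul, h1 i, one_pow]
        have h3 := hg.cond y hy
        change MemLocalIdeal M (_ * (_ - σ (ef H (hcyc x) y)))
        rw [hfixy]
        exact h3
    have h1 := huniq H _ _ _ hg hgσ
    exact (congrFun h1 ⟨x, hmemg x⟩).symm

end Cfsg.Agent.Lib.PRatExt.Main
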